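import Mathlib
import Cfsg.Agent.Lib.Helper30.DSims.Defs
import Cfsg.Agent.Lib.Helper55.Cores

/-!
# Sims' lemma for a dihedral quotient: the quotient by the odd core (common part of P4-24, P4-48)

`L` with dihedral data `DihT L Q M x n`, `Q` of exponent two and order `2 ^ e`, `x ^ 3` centralizing
`Q` and `x` not.  Then `O(L) = ⟨x ^ 6⟩`, `|L / O(L)| = 6 * 2 ^ e`, and the image `K` of `Q` in
`L / O(L)` is a normal subgroup of order `2 ^ e` and exponent two, containing every normal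
2-subgroup and not centralized by any element of order three.
-/

set_option autoImplicit false

namespace Cfsg.Agent.Lib.Helper67.DSims

open Cfsg.Agent.Lib.Helper30.DSims

universe u

theorem ident_common {L : Type u} [Group L] [Finite L] (Q M : Subgroup L) (x : L) (n : ℕ)
    (D : DihT L Q M x n) (e : ℕ) (hQc : Nat.card Q = 2 ^ e) (hexp : ∀ q ∈ Q, q * q = 1)
    (hx3 : ∀ q ∈ Q, x ^ 3 * q = q * x ^ 3) (hxnc : ∃ q ∈ Q, x * q ≠ q * x) :
    Nat.card (L ⧸ Cfsg.pPrimeCore 2 L) = 6 * 2 ^ e ∧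
    ∃ K : Subgroup (L ⧸ Cfsg.pPrimeCore 2 L), K.Normal ∧ Nat.card K = 2 ^ e ∧
      (∀ k ∈ K, k * k = 1) ∧
      (∀ ρ : L ⧸ Cfsg.pPrimeCore 2 L, orderOf ρ = 3 → ∃ k ∈ K, ρ * k ≠ k * ρ) ∧
      (∀ N : Subgroup (L ⧸ Cfsg.pPrimeCore 2 L), N.Normal → IsPGroup 2 N → N ≤ K) ∧
      (∀ τ : L, τ ∉ M → (QuotientGroup.mk τ : L ⧸ Cfsg.pPrimeCore 2 L) ∉ K) := by
  classical
  have hQn : Q.Normal := D.hQn
  have h3F : Fact (Nat.Prime 3) := ⟨Nat.prime_three⟩
  obtain ⟨O, hOdef⟩ : ∃ O : Subgroup L, O = Cfsg.pPrimeCore 2 L := ⟨_, rfl⟩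
  have hOn : O.Normal := by rw [hOdef]; infer_instance
  have hOodd : (Nat.card O).Coprime 2 := by
    rw [hOdef]; exact Cfsg.Agent.Lib.Helper55.pPrimeCore_coprime 2 L
  have hinvQ : ∀ v ∈ Q, v⁻¹ = v := fun v hv => inv_eq_of_mul_eq_one_left (hexp v hv)
  have hcomm : ∀ a ∈ Q, ∀ b ∈ Q, a * b = b * a := by
    intro a ha b hb
    have h2 : a * b = (a * b)⁻¹ := (hinvQ _ (mul_mem ha hb)).symm
    rw [h2, mul_inv_rev, hinvQ a ha, hinvQ b hb]
  -- the conjugation action on `Q`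
  obtain ⟨φ, hφdef⟩ : ∃ φ : L →* MulAut Q, φ = MulAut.conjNormal := ⟨_, rfl⟩
  have hφ : ∀ (g : L) (v : Q), ((φ g v : Q) : L) = g * v * g⁻¹ := by
    intro g v
    rw [hφdef]
    exact MulAut.conjNormal_apply g v
  have hker : ∀ g : L, φ g = 1 ↔ ∀ v ∈ Q, g * v = v * g := by
    intro g
    constructor
    · intro h v hv
      have h1 := hφ g ⟨v, hv⟩
      rw [h] at h1
      have h2 : g * v * g⁻¹ = v := h1.symm
      calc g * v = g * v * g⁻¹ * g := by group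
        _ = v * g := by rw [h2]
    · intro h
      apply MulEquiv.ext
      intro v
      apply Subtype.ext
      rw [hφ]
      show g * (v : L) * g⁻¹ = (v : L)
      rw [h v v.2]
      group
  have hφQ : ∀ q ∈ Q, φ q = 1 := fun q hq => (hker q).mpr (fun v hv => hcomm q hq v hv)
  have hφx3 : φ x ^ 3 = 1 := by
    rw [← map_pow]
    exact (hker _).mpr hx3
  have hφx1 : φ x ≠ 1 := by
    intro h
    obtain ⟨q, hq, hne⟩ := hxnc
    exact hne ((hker x).mp h q hq)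
  have hord : orderOf (φ x) = 3 := orderOf_eq_prime hφx3 hφx1
  have hφpow : ∀ j : ℕ, φ x ^ j = 1 ↔ 3 ∣ j := by
    intro j
    rw [← hord]
    exact (orderOf_dvd_iff_pow_eq_one).symm
  have h3n : 3 ∣ n := (hφpow n).mp (by rw [← map_pow]; exact hφQ _ D.hxn)
  obtain ⟨a, ha⟩ := h3n
  have hodd_a : Odd a := by
    have h1 := D.hn
    rw [ha] at h1
    exact (Nat.odd_mul.mp h1).2
  have hx2n : x ^ (n * 2) = 1 := by
    rw [pow_mul, pow_two]
    exact hexp _ D.hxn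
  obtain ⟨Y, hYdef⟩ : ∃ Y : Subgroup L, Y = Subgroup.zpowers (x ^ 6) := ⟨_, rfl⟩
  have hx6Y : x ^ 6 ∈ Y := by
    rw [hYdef]
    exact Subgroup.mem_zpowers _
  have hx6pow : (x ^ 6) ^ a = 1 := by
    rw [← pow_mul]
    have h1 : 6 * a = n * 2 := by omega
    rw [h1]
    exact hx2n
  have hYcard : Nat.card Y ∣ a := by
    rw [hYdef, Nat.card_zpowers]
    exact orderOf_dvd_of_pow_eq_one hx6pow
  have hYodd : (Nat.card Y).Coprime 2 := Nat.coprime_two_right.mpr (hodd_a.of_dvd_nat hYcard)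
  have hφx6 : φ (x ^ 6) = 1 := by
    rw [map_pow]
    exact (hφpow 6).mpr ⟨2, rfl⟩
  have hYker : ∀ c ∈ Y, φ c = 1 := by
    intro c hc
    rw [hYdef] at hc
    obtain ⟨k, rfl⟩ := Subgroup.mem_zpowers_iff.mp hc
    rw [map_zpow, hφx6, one_zpow]
  have hYM : Y ≤ M := by
    rw [hYdef, Subgroup.zpowers_le]
    exact M.pow_mem D.hxM 6
  obtain ⟨b, hb⟩ : ∃ b, a + 1 = 2 * b := by
    obtain ⟨c, hc⟩ := hodd_a
    exact ⟨c + 1, by omega⟩
  have hx3dec : x ^ 3 = (x ^ n)⁻¹ * (x ^ 6) ^ b := by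
    rw [← pow_mul, eq_inv_mul_iff_mul_eq, ← pow_add]
    congr 1
    omega
  have hx3QY : x ^ 3 ∈ Q ⊔ Y := by
    rw [hx3dec]
    exact Subgroup.mul_mem_sup (Q.inv_mem D.hxn) (Y.pow_mem hx6Y b)
  have hkerM : ∀ g : L, φ g = 1 → g ∈ M := by
    intro g hg
    by_contra hgM
    have h1 := D.hinv g hgM
    have h2 := hφQ _ h1
    rw [map_mul, map_mul, map_mul, map_inv, hg] at h2
    have h3 : φ x ^ 2 = 1 := by
      rw [pow_two]
      simpa using h2
    have h4 := (hφpow 2).mp h3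
    omega
  have hkerQY : ∀ g : L, φ g = 1 → g ∈ Q ⊔ Y := by
    intro g hg
    obtain ⟨k, hk⟩ := D.hgen g (hkerM g hg)
    have h1 := hφQ _ hk
    rw [map_mul, hg, one_mul, map_pow] at h1
    obtain ⟨c, hc⟩ := (hφpow k).mp h1
    have h2 : x ^ k ∈ Q ⊔ Y := by
      rw [hc, pow_mul]
      exact Subgroup.pow_mem _ hx3QY c
    have h3 : g = (g * x ^ k) * (x ^ k)⁻¹ := by group
    rw [h3]
    exact Subgroup.mul_mem _ (Subgroup.mem_sup_left hk) (Subgroup.inv_mem _ h2)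
  have hQYker : ∀ g ∈ Q ⊔ Y, φ g = 1 := by
    intro g hg
    have h1 : Q ⊔ Y ≤ φ.ker :=
      sup_le (fun q hq => MonoidHom.mem_ker.mpr (hφQ q hq))
        (fun c hc => MonoidHom.mem_ker.mpr (hYker c hc))
    exact MonoidHom.mem_ker.mp (h1 hg)
  -- `Y` is normal
  have hYn : Y.Normal := by
    constructor
    intro c hc g
    rw [hYdef] at hc ⊢
    obtain ⟨k, rfl⟩ := Subgroup.mem_zpowers_iff.mp hc
    have hconj : g * x ^ 6 * g⁻¹ ∈ Subgroup.zpowers (x ^ 6) := by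
      by_cases hgM : g ∈ M
      · obtain ⟨j, hj⟩ := D.hgen g hgM
        have h1 : g * x ^ 6 * g⁻¹ = x ^ 6 := by
          have hq := (hker _).mp hφx6 (g * x ^ j) hj
          calc g * x ^ 6 * g⁻¹ = (g * x ^ j) * x ^ 6 * (g * x ^ j)⁻¹ := by group
            _ = x ^ 6 * (g * x ^ j) * (g * x ^ j)⁻¹ := by rw [hq]
            _ = x ^ 6 := by group
        rw [h1]
        exact Subgroup.mem_zpowers _
      · have hu := D.hinv g hgM
        obtain ⟨u, hudef⟩ : ∃ u : L, u = g * x * g⁻¹ * x := ⟨_, rfl⟩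
        rw [← hudef] at hu
        have h1 : g * x * g⁻¹ = u * x⁻¹ := by rw [hudef]; group
        have h2 : g * x ^ 6 * g⁻¹ = (u * x⁻¹) ^ 6 := by rw [← h1, conj_pow]
        obtain ⟨v, hvdef⟩ : ∃ v : L, v = u * (x⁻¹ * u * x) * (x⁻¹ * (x⁻¹ * u * x) * x) := ⟨_, rfl⟩
        have hu1 : x⁻¹ * u * x ∈ Q := by
          have h := hQn.conj_mem u hu x⁻¹
          rwa [inv_inv] at h
        have hu2 : x⁻¹ * (x⁻¹ * u * x) * x ∈ Q := by
          have h := hQn.conj_mem _ hu1 x⁻¹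
          rwa [inv_inv] at h
        have hvQ : v ∈ Q := by
          rw [hvdef]
          exact Q.mul_mem (Q.mul_mem hu hu1) hu2
        have h3' : (u * x⁻¹) ^ 3 = u * x⁻¹ * (u * x⁻¹) * (u * x⁻¹) := by
          rw [pow_succ (u * x⁻¹) 2, pow_two]
        have h3 : (u * x⁻¹) ^ 3 = v * (x ^ 3)⁻¹ := by rw [h3', hvdef]; group
        have h4 : (u * x⁻¹) ^ 6 = (x ^ 6)⁻¹ := by
          have h5 : (u * x⁻¹) ^ 6 = (u * x⁻¹) ^ 3 * (u * x⁻¹) ^ 3 := by rw [← pow_add]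
          rw [h5, h3]
          have hc := hx3 v hvQ
          have hc' : (x ^ 3)⁻¹ * v = v * (x ^ 3)⁻¹ := by
            calc (x ^ 3)⁻¹ * v = (x ^ 3)⁻¹ * (v * x ^ 3) * (x ^ 3)⁻¹ := by group
              _ = (x ^ 3)⁻¹ * (x ^ 3 * v) * (x ^ 3)⁻¹ := by rw [hc]
              _ = v * (x ^ 3)⁻¹ := by group
          calc v * (x ^ 3)⁻¹ * (v * (x ^ 3)⁻¹) = v * ((x ^ 3)⁻¹ * v) * (x ^ 3)⁻¹ := by group
            _ = v * (v * (x ^ 3)⁻¹) * (x ^ 3)⁻¹ := by rw [hc']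
            _ = (v * v) * ((x ^ 3)⁻¹ * (x ^ 3)⁻¹) := by group
            _ = (x ^ 6)⁻¹ := by rw [hexp v hvQ, one_mul]; group
        rw [h2, h4]
        exact Subgroup.inv_mem _ (Subgroup.mem_zpowers _)
    have h6 : g * (x ^ 6) ^ k * g⁻¹ = (g * x ^ 6 * g⁻¹) ^ k := by rw [conj_zpow]
    rw [h6]
    exact Subgroup.zpow_mem _ hconj k
  have hYO : Y ≤ O := by
    rw [hOdef]
    exact le_sSup (show Y ∈ {N : Subgroup L | N.Normal ∧ (Nat.card N).Coprime 2} from ⟨hYn, hYodd⟩)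
  have hQO : Q ⊓ O = ⊥ :=
    disjoint_iff.mp (Subgroup.disjoint_of_coprime_natCard
      (by rw [hQc]; exact Nat.Coprime.pow_left e hOodd.symm))
  have hQY : Q ⊓ Y = ⊥ :=
    disjoint_iff.mp (Subgroup.disjoint_of_coprime_natCard
      (by rw [hQc]; exact Nat.Coprime.pow_left e hYodd.symm))
  have hOY : O ≤ Y := by
    intro c hc
    have hφc : φ c = 1 := by
      rw [hker]
      intro v hv
      exact (Subgroup.commute_of_normal_of_disjoint O Q hOn hQn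
        (disjoint_iff.mpr (by rw [inf_comm]; exact hQO)) c v hc hv).eq
    obtain ⟨q₂, hq₂, y₂, hy₂, hprod⟩ := Subgroup.mem_sup_of_normal_left.mp (hkerQY c hφc)
    have hcomm2 : Commute q₂ y₂ := ((hker y₂).mp (hYker y₂ hy₂) q₂ hq₂).symm
    have hm : c ^ Nat.card O = 1 := by
      have h1 := pow_card_eq_one' (G := O) (x := ⟨c, hc⟩)
      exact congrArg Subtype.val h1
    obtain ⟨i, hi⟩ : ∃ i, Nat.card O = 2 * i + 1 := Nat.coprime_two_right.mp hOodd
    rw [← hprod, hcomm2.mul_pow, hi] at hm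
    have hq2pow : q₂ ^ (2 * i + 1) = q₂ := by
      rw [pow_succ, pow_mul, pow_two, hexp q₂ hq₂, one_pow, one_mul]
    rw [hq2pow] at hm
    have hq2Y : q₂ ∈ Y := by
      have h1 : q₂ = (y₂ ^ (2 * i + 1))⁻¹ := eq_inv_of_mul_eq_one_left hm
      rw [h1]
      exact Y.inv_mem (Y.pow_mem hy₂ _)
    have hq21 : q₂ = 1 := by
      have h1 : q₂ ∈ Q ⊓ Y := ⟨hq₂, hq2Y⟩
      rw [hQY] at h1
      exact Subgroup.mem_bot.mp h1
    rw [← hprod, hq21, one_mul]
    exact hy₂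
  have hOeq : O = Y := le_antisymm hOY hYO
  -- the index of `O`
  have hidxO : O.index = 6 * 2 ^ e := by
    have hOle : O ≤ Q ⊔ O := le_sup_right
    have h1 := Subgroup.relIndex_mul_index hOle
    have h2 : O.relIndex (Q ⊔ O) = Nat.card Q := by
      rw [Subgroup.relIndex_sup_right, ← Subgroup.inf_relIndex_right, inf_comm, hQO,
        Subgroup.relIndex_bot_left]
    have hQOM : Q ⊔ O ≤ M := sup_le D.hQM (le_of_eq_of_le hOeq hYM)
    have h3 := Subgroup.relIndex_mul_index hQOM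
    have h4 : (Q ⊔ O).relIndex M = 3 := by
      obtain ⟨ψ, hψdef⟩ : ∃ ψ : M →* MulAut Q, ψ = φ.comp M.subtype := ⟨_, rfl⟩
      have hψ : ∀ m : M, ψ m = φ (m : L) := fun m => by rw [hψdef]; rfl
      have hk : ψ.ker = (Q ⊔ O).subgroupOf M := by
        ext m
        rw [MonoidHom.mem_ker, Subgroup.mem_subgroupOf, hψ, hOeq]
        exact ⟨fun h => hkerQY _ h, fun h => hQYker _ h⟩
      have hr : ψ.range = Subgroup.zpowers (φ x) := by
        apply le_antisymm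
        · rintro _ ⟨m, rfl⟩
          obtain ⟨k, hk⟩ := D.hgen m m.2
          have h1 := hφQ _ hk
          rw [map_mul, map_pow] at h1
          have h5 : ψ m = (φ x ^ k)⁻¹ := by
            rw [hψ]
            exact eq_inv_of_mul_eq_one_left h1
          rw [h5]
          exact Subgroup.inv_mem _ (Subgroup.pow_mem _ (Subgroup.mem_zpowers _) k)
        · rw [Subgroup.zpowers_le]
          exact ⟨⟨x, D.hxM⟩, hψ _⟩
      have h5 := Subgroup.index_ker ψ
      rw [hk, hr, Nat.card_zpowers, hord] at h5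
      exact h5
    rw [← h1, h2, ← h3, h4, D.hMidx, hQc]
    ring
  subst hOdef
  -- the quotient
  obtain ⟨π, hπdef⟩ : ∃ π : L →* L ⧸ Cfsg.pPrimeCore 2 L,
      π = QuotientGroup.mk' (Cfsg.pPrimeCore 2 L) := ⟨_, rfl⟩
  have hπsurj : Function.Surjective π := by
    rw [hπdef]
    exact QuotientGroup.mk'_surjective _
  have hπker : ∀ g : L, π g = 1 ↔ g ∈ Cfsg.pPrimeCore 2 L := by
    intro g
    rw [hπdef]
    exact QuotientGroup.eq_one_iff g
  have hπmk : ∀ g : L, (QuotientGroup.mk g : L ⧸ Cfsg.pPrimeCore 2 L) = π g :=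
    fun g => by rw [hπdef]; rfl
  have hcop : ∀ (g : MulAut Q) (k : ℕ), g ^ 3 = 1 → g ^ (2 ^ k) = 1 → g = 1 := by
    intro g k h1 h2
    have h3 : orderOf g ∣ Nat.gcd 3 (2 ^ k) :=
      Nat.dvd_gcd (orderOf_dvd_of_pow_eq_one h1) (orderOf_dvd_of_pow_eq_one h2)
    have h4 : Nat.gcd 3 (2 ^ k) = 1 := Nat.Coprime.pow_right k (by decide)
    rw [h4] at h3
    exact orderOf_eq_one_iff.mp (Nat.dvd_one.mp h3)
  -- elements of `Q ⊔ O` map into the image of `Q`
  have hmapK : ∀ g : L, φ g = 1 → π g ∈ Q.map π := by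
    intro g hg
    obtain ⟨q₂, hq₂, y₂, hy₂, hprod⟩ := Subgroup.mem_sup_of_normal_left.mp (hkerQY g hg)
    have h1 : π y₂ = 1 := (hπker y₂).mpr (hOeq ▸ hy₂)
    rw [← hprod, map_mul, h1, mul_one]
    exact Subgroup.mem_map_of_mem π hq₂
  refine ⟨hidxO, Q.map π, hQn.map π hπsurj, ?_, ?_, ?_, ?_, ?_⟩
  · rw [← Subgroup.relIndex_ker π (K := Q), hπdef, QuotientGroup.ker_mk',
      ← Subgroup.inf_relIndex_right, inf_comm, hQO, Subgroup.relIndex_bot_left, hQc]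
  · rintro _ ⟨q, hq, rfl⟩
    rw [← map_mul, hexp q hq, map_one]
  · intro ρb hρ3
    by_contra hcon
    obtain ⟨ρ, rfl⟩ := hπsurj ρb
    have hφρ : φ ρ = 1 := by
      rw [hker]
      intro v hv
      have h1 : π ρ * π v = π v * π ρ := by
        by_contra hne
        exact hcon ⟨π v, Subgroup.mem_map_of_mem π hv, hne⟩
      have h2 : ρ * v * ρ⁻¹ * v⁻¹ ∈ Cfsg.pPrimeCore 2 L := by
        rw [← hπker, map_mul, map_mul, map_mul, map_inv, map_inv, h1]
        group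
      have h3 : ρ * v * ρ⁻¹ * v⁻¹ ∈ Q := Q.mul_mem (hQn.conj_mem v hv ρ) (Q.inv_mem hv)
      have h4 : ρ * v * ρ⁻¹ * v⁻¹ ∈ Q ⊓ Cfsg.pPrimeCore 2 L := ⟨h3, h2⟩
      rw [hQO, Subgroup.mem_bot] at h4
      calc ρ * v = ρ * v * ρ⁻¹ * v⁻¹ * (v * ρ) := by group
        _ = v * ρ := by rw [h4, one_mul]
    obtain ⟨q, hq, hqρ⟩ := hmapK ρ hφρ
    have h1 : π ρ ^ 2 = 1 := by
      rw [← hqρ, ← map_pow, pow_two, hexp q hq, map_one]
    have h2 := orderOf_dvd_of_pow_eq_one h1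
    rw [hρ3] at h2
    omega
  · intro N hNn hN2 nb hnb
    obtain ⟨h, rfl⟩ := hπsurj nb
    apply hmapK
    obtain ⟨k, hk⟩ := hN2 ⟨π h, hnb⟩
    have hk' : π h ^ (2 ^ k) = 1 := congrArg Subtype.val hk
    have hφk : φ h ^ (2 ^ k) = 1 := by
      rw [← map_pow]
      apply hYker
      rw [← hOeq, ← hπker, map_pow]
      exact hk'
    by_cases hM : h ∈ M
    · obtain ⟨j, hj⟩ := D.hgen h hM
      have h1 := hφQ _ hj
      rw [map_mul, map_pow] at h1
      have h2 : φ h = (φ x ^ j)⁻¹ := eq_inv_of_mul_eq_one_left h1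
      have h3 : φ h ^ 3 = 1 := by
        rw [h2, inv_pow, ← pow_mul, mul_comm, pow_mul, hφx3, one_pow, inv_one]
      exact hcop _ k h3 hφk
    · exfalso
      have hu := D.hinv h hM
      obtain ⟨w, hwdef⟩ : ∃ w : L, w = h * x * h⁻¹ * x⁻¹ := ⟨_, rfl⟩
      have hwN : π w ∈ N := by
        rw [hwdef, map_mul, map_mul, map_mul, map_inv, map_inv, mul_assoc, mul_assoc]
        apply N.mul_mem hnb
        have h1 := hNn.conj_mem _ (N.inv_mem hnb) (π x)
        rw [← mul_assoc]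
        exact h1
      obtain ⟨k', hk'⟩ := hN2 ⟨π w, hwN⟩
      have hk'' : π w ^ (2 ^ k') = 1 := congrArg Subtype.val hk'
      have hφw : φ w ^ (2 ^ k') = 1 := by
        rw [← map_pow]
        apply hYker
        rw [← hOeq, ← hπker, map_pow]
        exact hk''
      have hw2 : w = (h * x * h⁻¹ * x) * (x ^ 2)⁻¹ := by rw [hwdef]; group
      have hφw2 : φ w = (φ x ^ 2)⁻¹ := by
        rw [hw2, map_mul, hφQ _ hu, one_mul, map_inv, map_pow]
      have h3 : φ w ^ 3 = 1 := by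
        rw [hφw2, inv_pow, ← pow_mul, mul_comm, pow_mul, hφx3, one_pow, inv_one]
      have h4 := hcop _ k' h3 hφw
      rw [hφw2, inv_eq_one] at h4
      have h5 := (hφpow 2).mp h4
      omega
  · intro τ hτM hτK
    rw [hπmk] at hτK
    obtain ⟨q, hq, hqτ⟩ := hτK
    have h1 : q⁻¹ * τ ∈ Cfsg.pPrimeCore 2 L := by
      rw [← hπker, map_mul, map_inv, hqτ]
      group
    have h2 : q⁻¹ * τ ∈ M := hYM (hOeq ▸ h1)
    have h3 : τ = q * (q⁻¹ * τ) := by group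
    apply hτM
    rw [h3]
    exact M.mul_mem (D.hQM hq) h2

end Cfsg.Agent.Lib.Helper67.DSims
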