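import Mathlib
import Cfsg.Agent.Lib.Helper30.DSims.Defs
import Cfsg.Agent.Lib.Helper67.DSims.IdentCommon
import Cfsg.Agent.Lib.Helper65.Sub3.IsoS4xC2

/-!
# DSIMS package (P4-48): identification of `L / O(L)` with `S₄ × C₂` when `|Q| = 8`
-/

set_option autoImplicit false

namespace Cfsg.Agent.Lib.Helper67.DSims

open Cfsg.Agent.Lib.Helper30.DSims

universe u

theorem lemIdent48 : LemIdent48.{u} := by
  intro L _ _ Q M x n D hQ hexp hx3 hxnc τ hτ2 hτM
  obtain ⟨hcard, K, hKn, hKc, hK2, hcent, hcore, hτK⟩ :=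
    ident_common Q M x n D 3 (by rw [hQ]; norm_num) hexp hx3 hxnc
  exact Cfsg.Agent.Lib.Helper65.Sub3.iso_S4xC2 (by rw [hcard]; norm_num) K
    (by rw [hKc]; norm_num) hK2 hcent
    (QuotientGroup.mk τ : L ⧸ Cfsg.pPrimeCore 2 L)
    (by rw [← QuotientGroup.mk_mul, hτ2, QuotientGroup.mk_one]) (hτK τ hτM) hcore

end Cfsg.Agent.Lib.Helper67.DSims
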